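import Mathlib

/-!
# Lang's theorem for the diagonal torus of `SL_n` over the algebraic closure of `F₃` (helper64)

`lang_diag` : if `A^(3) = A d` with `d` diagonal, then `A = A' e` with `A'` over `F₃` and `e` diagonal.
-/

set_option autoImplicit false

namespace Cfsg.Agent.H64.E83

open Matrix

variable {k : Type*} [Field k] {n : ℕ}

theorem cube_eq (f : ZMod 3 →+* k) {b : k} (h : b ^ 3 = b) : ∃ c : ZMod 3, f c = b := by
  have h1 : b * ((b - 1) * (b + 1)) = 0 := by linear_combination h
  rcases mul_eq_zero.1 h1 with h2 | h2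
  · exact ⟨0, by rw [map_zero, h2]⟩
  · rcases mul_eq_zero.1 h2 with h3 | h3
    · exact ⟨1, by rw [map_one]; linear_combination -h3⟩
    · exact ⟨-1, by rw [map_neg, map_one]; linear_combination -h3⟩

/-- a diagonal element of `SL_n` -/
def IsDg (d : SpecialLinearGroup (Fin n) k) : Prop := ∀ i j, i ≠ j → (d : Matrix (Fin n) (Fin n) k) i j = 0

theorem IsDg.eq_diagonal {d : SpecialLinearGroup (Fin n) k} (h : IsDg d) :
    (d : Matrix (Fin n) (Fin n) k) = diagonal fun i => (d : Matrix (Fin n) (Fin n) k) i i := by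
  ext i j
  by_cases hij : i = j
  · subst hij; rw [diagonal_apply_eq]
  · rw [diagonal_apply_ne _ hij, h i j hij]

theorem exists_root [IsAlgClosed k] {d : SpecialLinearGroup (Fin (n + 1)) k} (hd : IsDg d) :
    ∃ e : SpecialLinearGroup (Fin (n + 1)) k, IsDg e ∧
      ∀ i, (e : Matrix (Fin (n + 1)) (Fin (n + 1)) k) i i ^ 2 = (d : Matrix (Fin (n + 1)) (Fin (n + 1)) k) i i := by
  have h0 : ∀ i, ∃ s : k, s ^ 2 = (d : Matrix (Fin (n + 1)) (Fin (n + 1)) k) i i := fun i =>
    IsAlgClosed.exists_pow_nat_eq _ (by norm_num)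
  choose s hs using h0
  have hdet : ∏ i, (d : Matrix (Fin (n + 1)) (Fin (n + 1)) k) i i = 1 := by
    have h1 := d.2
    rw [hd.eq_diagonal, det_diagonal] at h1
    exact h1
  set P := ∏ i, s i with hP
  have hP2 : P * P = 1 := by
    rw [hP, ← Finset.prod_mul_distrib, ← hdet]
    exact Finset.prod_congr rfl fun i _ => by rw [← hs, pow_two]
  have hdetE : (diagonal fun i => if i = 0 then s i * P else s i).det = 1 := by
    rw [det_diagonal]
    have h2 : ∀ i : Fin (n + 1), (if i = 0 then s i * P else s i) = s i * (if i = 0 then P else 1) := by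
      intro i; split_ifs <;> simp
    rw [Finset.prod_congr rfl fun i _ => h2 i, Finset.prod_mul_distrib, ← hP, Finset.prod_ite_eq' Finset.univ (0 : Fin (n + 1)),
      if_pos (Finset.mem_univ _), hP2]
  refine ⟨⟨diagonal fun i => if i = 0 then s i * P else s i, hdetE⟩, ?_, ?_⟩
  · intro i j hij
    exact diagonal_apply_ne _ hij
  · intro i
    show (diagonal fun i => if i = 0 then s i * P else s i) i i ^ 2 = _
    rw [diagonal_apply_eq]
    split_ifs with h
    · rw [mul_pow, hs, pow_two P, hP2, mul_one]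
    · exact hs i

theorem map_diag {R : Type*} [CommRing R] {K : Type*} [CommRing K] (f : R →+* K) (A : SpecialLinearGroup (Fin n) R) (i j : Fin n) :
    (SpecialLinearGroup.map f A : Matrix (Fin n) (Fin n) K) i j = f ((A : Matrix (Fin n) (Fin n) R) i j) := rfl

/-- **Lang's theorem for the diagonal torus**. -/
theorem lang_diag [IsAlgClosed k] [CharP k 3] (f : ZMod 3 →+* k) {A d : SpecialLinearGroup (Fin (n + 1)) k} (hd : IsDg d)
    (hA : SpecialLinearGroup.map (frobenius k 3) A = A * d) :
    ∃ (A' : SpecialLinearGroup (Fin (n + 1)) (ZMod 3)) (e : SpecialLinearGroup (Fin (n + 1)) k), IsDg e ∧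
      A = SpecialLinearGroup.map f A' * e := by
  have : Fact (Nat.Prime 3) := ⟨by norm_num⟩
  obtain ⟨e, he, he2⟩ := exists_root hd
  have h1 : SpecialLinearGroup.map (frobenius k 3) e = e * d := by
    apply Subtype.ext
    show _ = (e : Matrix (Fin (n + 1)) (Fin (n + 1)) k) * (d : Matrix (Fin (n + 1)) (Fin (n + 1)) k)
    ext i j
    rw [map_diag, frobenius_def, he.eq_diagonal, hd.eq_diagonal, diagonal_mul_diagonal]
    by_cases hij : i = j
    · subst hij
      rw [diagonal_apply_eq, diagonal_apply_eq, ← he2]; ring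
    · rw [diagonal_apply_ne _ hij, diagonal_apply_ne _ hij]; ring
  set B := A * e⁻¹ with hB
  have h2 : SpecialLinearGroup.map (frobenius k 3) B = B := by
    rw [hB, map_mul, map_inv, hA, h1]; group
  have h3 : ∀ i j, ∃ c : ZMod 3, f c = (B : Matrix (Fin (n + 1)) (Fin (n + 1)) k) i j := by
    intro i j
    apply cube_eq f
    have h4 := congrArg (fun M : SpecialLinearGroup (Fin (n + 1)) k => (M : Matrix (Fin (n + 1)) (Fin (n + 1)) k) i j) h2
    simpa [map_diag, frobenius_def] using h4
  choose c hc using h3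
  have h5 : (Matrix.of c).map f = (B : Matrix (Fin (n + 1)) (Fin (n + 1)) k) := by
    ext i j
    exact hc i j
  have h6 : (Matrix.of c).det = 1 := by
    apply f.injective
    rw [map_one, RingHom.map_det, RingHom.mapMatrix_apply, h5]
    exact B.2
  refine ⟨⟨Matrix.of c, h6⟩, e, he, ?_⟩
  have h7 : SpecialLinearGroup.map f ⟨Matrix.of c, h6⟩ = B := Subtype.ext h5
  rw [h7, hB]; group

end Cfsg.Agent.H64.E83
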