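import Cfsg.Agent.H64.E83.Stab

/-!
# `S₀`, `PGL₂(11)`, `M₁₁` stabilise the 5-dimensional submodules (helper64)
-/

set_option autoImplicit false
set_option maxRecDepth 10000
set_option maxHeartbeats 100000

namespace Cfsg.Agent.H64.E83

open Matrix Cfsg Cfsg.Lie Cfsg.Agent.ChevalleyStructure Cfsg.Agent.ChevalleyStructure.Elts
open Cfsg.Agent.H992.E8X Cfsg.Agent.H238.E8
open Cfsg.Agent.H788.E83 (SL5 it it_transvection As Ax Ay At Afa Afb Ax_eq Ay_eq At_eq order_s x_pow y_pow t_sq y_x' t_y')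

attribute [local irreducible] i4 i1 Ph

theorem ac_i4 (A : SL5) (w : Fin 5 → ZMod 3) : ac (Ph A) (i4 w) = i4 (A.1 *ᵥ w) := act4 A w

theorem ac_i1 (A : SL5) (w : Fin 5 → ZMod 3) : ac (Ph A) (i1 w) = i1 ((it (ZMod 3) A).1 *ᵥ w) := act1 A w

theorem decomp {M N : Matrix (Fin 5) (Fin 5) (ZMod 3)} (h : M * N = 1) (w : Fin 5 → ZMod 3) :
    w = ∑ k, (N *ᵥ w) k • (fun i => M i k) := by
  have h1 : M *ᵥ (N *ᵥ w) = w := by rw [Matrix.mulVec_mulVec, h, Matrix.one_mulVec]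
  funext i
  rw [Finset.sum_apply]
  conv_lhs => rw [← h1]
  show ∑ k, M i k * (N *ᵥ w) k = _
  exact Finset.sum_congr rfl fun k _ => mul_comm _ _

theorem i4_sum {ι : Type*} (s : Finset ι) (f : ι → Fin 5 → ZMod 3) : i4 (∑ k ∈ s, f k) = ∑ k ∈ s, i4 (f k) := by
  classical
  induction s using Finset.induction_on with
  | empty => rw [Finset.sum_empty, Finset.sum_empty, ← zero_smul (ZMod 3) (0 : Fin 5 → ZMod 3), i4_smul, zero_smul]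
  | insert a s ha ih => rw [Finset.sum_insert ha, Finset.sum_insert ha, i4_add, ih]

theorem i1_sum {ι : Type*} (s : Finset ι) (f : ι → Fin 5 → ZMod 3) : i1 (∑ k ∈ s, f k) = ∑ k ∈ s, i1 (f k) := by
  classical
  induction s using Finset.induction_on with
  | empty => rw [Finset.sum_empty, Finset.sum_empty, ← zero_smul (ZMod 3) (0 : Fin 5 → ZMod 3), i1_smul, zero_smul]
  | insert a s ha ih => rw [Finset.sum_insert ha, Finset.sum_insert ha, i1_add, ih]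

/-! ### the orbit of `x` on the two lines -/

/-- `x ^ k e₀` -/
def o4 : ℕ → Fin 5 → ZMod 3
  | 0 => ![1, 0, 0, 0, 0]
  | 1 => ![1, 1, 2, 2, 0]
  | 2 => ![2, 0, 0, 2, 2]
  | 3 => ![2, 0, 2, 1, 1]
  | 4 => ![1, 2, 2, 0, 0]
  | 5 => ![0, 1, 0, 2, 2]
  | 6 => ![0, 2, 2, 2, 0]
  | 7 => ![1, 0, 2, 2, 1]
  | 8 => ![1, 1, 2, 2, 1]
  | 9 => ![1, 2, 0, 1, 0]
  | _ => ![2, 0, 0, 1, 2]

/-- `(x ^ k)⁻ᵀ (f₀ - f₄)` -/
def o1 : ℕ → Fin 5 → ZMod 3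
  | 0 => ![1, 0, 0, 0, 2]
  | 1 => ![0, 0, 2, 0, 2]
  | 2 => ![1, 2, 2, 1, 0]
  | 3 => ![0, 0, 2, 0, 0]
  | 4 => ![0, 0, 2, 1, 1]
  | 5 => ![0, 1, 2, 2, 1]
  | 6 => ![1, 2, 1, 2, 0]
  | 7 => ![1, 0, 1, 2, 0]
  | 8 => ![1, 1, 0, 1, 0]
  | 9 => ![0, 2, 1, 0, 2]
  | _ => ![1, 1, 2, 0, 1]

theorem o4_step : ∀ k : Fin 10, Ax.1 *ᵥ o4 k = o4 (k + 1) := by rw [Ax_eq]; decide +kernel

theorem o1_step : ∀ k : Fin 10, Ax.1ᵀ *ᵥ o1 (k + 1) = o1 k := by rw [Ax_eq]; decide +kernel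

theorem act1' {A : SL5} {w w' : Fin 5 → ZMod 3} (h : A.1ᵀ *ᵥ w' = w) : ac (Ph A) (i1 w) = i1 w' := by
  have h1 : (it (ZMod 3) A).1 * A.1ᵀ = 1 := by
    show ((A⁻¹ : SL5).1)ᵀ * A.1ᵀ = 1
    rw [← Matrix.transpose_mul]
    have h2 : A.1 * (A⁻¹ : SL5).1 = 1 := by
      have h3 := Matrix.SpecialLinearGroup.coe_mul A A⁻¹
      rw [mul_inv_cancel] at h3
      exact h3.symm
    rw [h2, Matrix.transpose_one]
  rw [ac_i1, ← h, Matrix.mulVec_mulVec, h1, Matrix.one_mulVec]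

theorem act4' {A : SL5} {w w' : Fin 5 → ZMod 3} (h : A.1 *ᵥ w = w') : ac (Ph A) (i4 w) = i4 w' := by
  rw [ac_i4, h]

theorem qI_eq : qI = i4 (o4 0) := congrArg i4 (by decide)

theorem qII_eq : qII = i1 (o1 0) := congrArg i1 (by decide)

theorem x_qI : ∀ k, k ≤ 10 → ac (Ph Ax ^ k) qI = i4 (o4 k) := by
  intro k
  induction k with
  | zero => intro _; rw [pow_zero, ac_one]; exact qI_eq
  | succ k ih =>
    intro hk
    rw [pow_succ', ac_mul, ih (by omega)]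
    exact act4' (o4_step ⟨k, by omega⟩)

theorem x_qII : ∀ k, k ≤ 10 → ac (Ph Ax ^ k) qII = i1 (o1 k) := by
  intro k
  induction k with
  | zero => intro _; rw [pow_zero, ac_one]; exact qII_eq
  | succ k ih =>
    intro hk
    rw [pow_succ', ac_mul, ih (by omega)]
    exact act1' (o1_step ⟨k, by omega⟩)

def M4 : Matrix (Fin 5) (Fin 5) (ZMod 3) := !![1, 1, 2, 2, 1; 0, 1, 0, 0, 2; 0, 2, 0, 2, 2; 0, 2, 2, 1, 0; 0, 0, 2, 1, 0]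
def N4 : Matrix (Fin 5) (Fin 5) (ZMod 3) := !![1, 0, 1, 0, 2; 0, 0, 0, 2, 1; 0, 1, 2, 2, 0; 0, 1, 2, 2, 1; 0, 2, 0, 2, 1]
def M5 : Matrix (Fin 5) (Fin 5) (ZMod 3) := !![1, 2, 1, 0, 1; 1, 0, 2, 1, 2; 2, 2, 0, 0, 2; 2, 1, 1, 2, 0; 0, 1, 0, 2, 0]
def N5 : Matrix (Fin 5) (Fin 5) (ZMod 3) := !![2, 2, 0, 0, 2; 2, 1, 1, 2, 2; 2, 2, 0, 1, 1; 2, 1, 1, 2, 1; 2, 0, 1, 1, 2]
def M1 : Matrix (Fin 5) (Fin 5) (ZMod 3) := !![1, 0, 1, 0, 0; 0, 0, 2, 0, 0; 0, 2, 2, 2, 2; 0, 0, 1, 0, 1; 2, 2, 0, 0, 1]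
def N1 : Matrix (Fin 5) (Fin 5) (ZMod 3) := !![1, 1, 0, 0, 0; 2, 0, 0, 1, 2; 0, 2, 0, 0, 0; 1, 0, 2, 1, 1; 0, 1, 0, 1, 0]

theorem MN4 : M4 * N4 = 1 := by decide +kernel
theorem MN5 : M5 * N5 = 1 := by decide +kernel
theorem MN1 : M1 * N1 = 1 := by decide +kernel

/-- the exponents `3 ^ k` modulo 11 -/
def e3 : Fin 5 → ℕ := ![1, 3, 9, 5, 4]

theorem M4_col : ∀ k : Fin 5, (fun i => M4 i k) = o4 k := by decide +kernel
theorem M5_col : ∀ k : Fin 5, (fun i => M5 i k) = o4 (e3 k) := by decide +kernel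
theorem M1_col : ∀ k : Fin 5, (fun i => M1 i k) = o1 k := by decide +kernel
theorem e3_le : ∀ k : Fin 5, e3 k ≤ 10 := by decide

theorem span4 {v : L3} (hv : v ∈ U4) : ∃ c : Fin 5 → ZMod 3, v = ∑ k : Fin 5, c k • ac (Ph Ax ^ (k : ℕ)) qI := by
  obtain ⟨w, rfl⟩ := hv
  refine ⟨N4 *ᵥ w, ?_⟩
  conv_lhs => rw [decomp MN4 w, i4_sum]
  exact Finset.sum_congr rfl fun k _ => by rw [i4_smul, M4_col, x_qI k (by omega)]

theorem span5 {v : L3} (hv : v ∈ U4) : ∃ c : Fin 5 → ZMod 3, v = ∑ k : Fin 5, c k • ac (Ph Ax ^ e3 k) qI := by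
  obtain ⟨w, rfl⟩ := hv
  refine ⟨N5 *ᵥ w, ?_⟩
  conv_lhs => rw [decomp MN5 w, i4_sum]
  exact Finset.sum_congr rfl fun k _ => by rw [i4_smul, M5_col, x_qI _ (e3_le k)]

theorem span1 {v : L3} (hv : v ∈ U1) : ∃ c : Fin 5 → ZMod 3, v = ∑ k : Fin 5, c k • ac (Ph Ax ^ (k : ℕ)) qII := by
  obtain ⟨w, rfl⟩ := hv
  refine ⟨N1 *ᵥ w, ?_⟩
  conv_lhs => rw [decomp MN1 w, i1_sum]
  exact Finset.sum_congr rfl fun k _ => by rw [i1_smul, M1_col, x_qII k (by omega)]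

def M6 : Matrix (Fin 5) (Fin 5) (ZMod 3) := !![1, 0, 0, 0, 0; 0, 0, 0, 2, 1; 0, 2, 2, 1, 2; 0, 0, 0, 0, 2; 2, 2, 0, 2, 1]
def N6 : Matrix (Fin 5) (Fin 5) (ZMod 3) := !![1, 0, 0, 0, 0; 2, 1, 0, 0, 2; 1, 1, 2, 0, 1; 0, 2, 0, 2, 0; 0, 0, 0, 2, 0]

theorem MN6 : M6 * N6 = 1 := by decide +kernel

theorem M6_col0 : (fun i => M6 i 0) = o1 0 := by decide +kernel
theorem M6_col : ∀ k : Fin 4, (fun i => M6 i k.succ) = o1 (e3 k.castSucc) := by decide +kernel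

theorem span6 {v : L3} (hv : v ∈ U1) :
    ∃ (c : ZMod 3) (d : Fin 4 → ZMod 3), v = c • qII + ∑ k : Fin 4, d k • ac (Ph Ax ^ e3 k.castSucc) qII := by
  obtain ⟨w, rfl⟩ := hv
  obtain ⟨e, he⟩ : ∃ e, e = N6 *ᵥ w := ⟨_, rfl⟩
  have h0 : w = ∑ k, e k • (fun i => M6 i k) := by rw [he]; exact decomp MN6 w
  have h1 : i1 w = ∑ k, e k • i1 (fun i => M6 i k) := by
    rw [h0, i1_sum]
    exact Finset.sum_congr rfl fun k _ => i1_smul _ _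
  rw [Fin.sum_univ_succ, M6_col0, ← qII_eq] at h1
  refine ⟨e 0, fun k => e k.succ, ?_⟩
  rw [h1]
  have h2 : ∀ k : Fin 4, e k.succ • i1 (fun i => M6 i k.succ) = e k.succ • ac (Ph Ax ^ e3 k.castSucc) qII := fun k => by
    rw [M6_col, x_qII _ (e3_le _)]
  rw [Finset.sum_congr rfl fun k _ => h2 k]

/-! ### relations of the special vectors -/

theorem qI_ne : qI ≠ 0 := by
  intro h
  have h1 : i4 ![1, 0, 0, 0, 0] = i4 0 := by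
    rw [← zero_smul (ZMod 3) (0 : Fin 5 → ZMod 3), i4_smul, zero_smul]; exact h
  have h2 := congrFun (i4_inj h1) 0
  exact one_ne_zero (α := ZMod 3) h2

theorem qII_ne : qII ≠ 0 := by
  intro h
  have h1 : i1 ![1, 0, 0, 0, 2] = i1 0 := by
    rw [← zero_smul (ZMod 3) (0 : Fin 5 → ZMod 3), i1_smul, zero_smul]; exact h
  have h2 := congrFun (i1_inj h1) 0
  exact one_ne_zero (α := ZMod 3) h2

theorem y_qI : ac (Ph Ay) qI = qI := by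
  rw [qI_eq]
  exact act4' (by rw [Ay_eq]; decide +kernel)

theorem t_qI : ac (Ph At) qI = qI := by
  rw [qI_eq]
  exact act4' (by rw [At_eq]; decide +kernel)

theorem tx_qI : ac (Ph At) (ac (Ph Ax) qI) = ac (Ph Ax) qI := by
  have h := x_qI 1 (by norm_num)
  rw [pow_one] at h
  rw [h]
  exact act4' (by rw [At_eq]; decide +kernel)

theorem y_qII : ac (Ph Ay) qII = qII := by
  rw [qII_eq]
  exact act1' (by rw [Ay_eq]; decide +kernel)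

theorem t_qII : ac (Ph At) qII = qII := by
  rw [qII_eq]
  exact act1' (by rw [At_eq]; decide +kernel)

theorem xi_qII : ac (Ph Ax)⁻¹ qII = i1 (o1 10) := by
  have h2 : Ph Ax ^ 11 = 1 := by rw [← map_pow, x_pow, map_one]
  have h3 : (Ph Ax)⁻¹ = Ph Ax ^ 10 := by
    rw [inv_eq_iff_mul_eq_one, ← pow_succ']
    exact h2
  rw [h3]
  exact x_qII 10 le_rfl

theorem tx_qII : ac (Ph At) (ac (Ph Ax)⁻¹ qII) = ac (Ph Ax)⁻¹ qII := by
  rw [xi_qII]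
  exact act1' (by rw [At_eq]; decide +kernel)

/-! ### the images of the special vectors -/

/-- **`PGL₂(11)`**: the outer element moves `q_I` into the fixed space of `A_II`. -/
theorem pgl_fix {h : E} (hx : h * Ph Ax * h⁻¹ = (Ph Ax)⁻¹) (hy : h * Ph Ay = Ph Ay * h) (ht : h * Ph At = Ph At * h) :
    ac (Ph Ay) (ac h qI) = ac h qI ∧ ac (Ph At) (ac h qI) = ac h qI ∧
      ac (Ph At) (ac (Ph Ax)⁻¹ (ac h qI)) = ac (Ph Ax)⁻¹ (ac h qI) := by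
  have hx' : (Ph Ax)⁻¹ * h = h * Ph Ax := by rw [← hx]; group
  refine ⟨?_, ?_, ?_⟩
  · rw [← ac_mul, ← hy, ac_mul, y_qI]
  · rw [← ac_mul, ← ht, ac_mul, t_qI]
  · rw [← ac_mul (Ph Ax)⁻¹, hx', ac_mul, ← ac_mul (Ph At), ← ht, ac_mul, tx_qI]

theorem m11_gen {f y t b : E} {q : L3} (hy5 : y ^ 5 = 1) (htt : t * t = 1) (hy : f * y * f⁻¹ = y ^ 2) (ht : f * f = t)
    (hb : f * b * f⁻¹ = y * b * t * y ^ 2) (hyq : ac y q = q) (htq : ac t q = q) (hbq : ac b q = q) :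
    ac y (ac f q) = ac f q ∧ ac t (ac f q) = ac f q ∧ ac b (ac f q) = ac f q := by
  have hpow : ∀ n : ℕ, ac (y ^ n) q = q := by
    intro n
    induction n with
    | zero => rw [pow_zero, ac_one]
    | succ n ih => rw [pow_succ, ac_mul, hyq, ih]
  have h3 : f * y = y ^ 2 * f := by rw [← hy]; group
  have h4 : ∀ n : ℕ, f * y ^ n = y ^ (2 * n) * f := by
    intro n
    induction n with
    | zero => simp
    | succ n ih => rw [pow_succ, ← mul_assoc, ih, mul_assoc, h3, ← mul_assoc, ← pow_add]; rfl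
  have e1 : y * f = f * y ^ 3 := by
    rw [h4, show 2 * 3 = 5 + 1 from rfl, pow_succ, hy5, one_mul]
  have e2 : t * f = f * t := by rw [← ht]; group
  have e3 : b * f = f * (y ^ 2 * b * y ^ 4 * t) := by
    have h1 : f * b = y * b * t * y ^ 2 * f := by rw [← hb]; group
    have h2 : f * (y ^ 2 * b * y ^ 4 * t) = y ^ 4 * (y * b * t * y ^ 2) * y ^ 8 * f * t := by
      calc f * (y ^ 2 * b * y ^ 4 * t) = (f * y ^ 2) * b * y ^ 4 * t := by group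
        _ = y ^ 4 * (f * b) * y ^ 4 * t := by rw [h4]; group
        _ = y ^ 4 * (y * b * t * y ^ 2) * (f * y ^ 4) * t := by rw [h1]; group
        _ = y ^ 4 * (y * b * t * y ^ 2) * y ^ 8 * f * t := by rw [h4]; group
    rw [h2]
    have h5 : y ^ 4 * (y * b * t * y ^ 2) * y ^ 8 = y ^ 5 * (b * t) * (y ^ 5 * y ^ 5) := by group
    rw [h5, hy5, one_mul, one_mul, mul_one, mul_assoc, mul_assoc, ← e2, ← mul_assoc t t f, htt, one_mul]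
  refine ⟨?_, ?_, ?_⟩
  · rw [← ac_mul, e1, ac_mul, hpow]
  · rw [← ac_mul, e2, ac_mul, htq]
  · rw [← ac_mul, e3, ac_mul, ac_mul, ac_mul, ac_mul, htq, hpow, hbq, hpow]

theorem hy5 : Ph Ay ^ 5 = 1 := by rw [← map_pow, y_pow, map_one]

theorem htt : Ph At * Ph At = 1 := by rw [← map_mul, t_sq, map_one]

/-- **`M₁₁`, case I** (`f` of type `Afa`, normalising `A_I`). -/
theorem m11_fixI {f : E} (hy : f * Ph Ay * f⁻¹ = Ph Ay ^ 2) (ht : f * f = Ph At)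
    (hb : f * ((Ph Ax)⁻¹ * Ph At * Ph Ax) * f⁻¹ = Ph Ay * ((Ph Ax)⁻¹ * Ph At * Ph Ax) * Ph At * Ph Ay ^ 2) :
    ac (Ph Ay) (ac f qI) = ac f qI ∧ ac (Ph At) (ac f qI) = ac f qI ∧
      ac (Ph At) (ac (Ph Ax) (ac f qI)) = ac (Ph Ax) (ac f qI) := by
  obtain ⟨h1, h2, h3⟩ := m11_gen hy5 htt hy ht hb y_qI t_qI (by rw [ac_mul, ac_mul, tx_qI, ac_inv_ac])
  refine ⟨h1, h2, ?_⟩
  rw [ac_mul, ac_mul] at h3
  have h4 := congrArg (ac (Ph Ax)) h3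
  rwa [ac_ac_inv] at h4

/-- **`M₁₁`, case II** (`f` of type `Afb`, normalising `A_II`). -/
theorem m11_fixII {f : E} (hy : f * Ph Ay * f⁻¹ = Ph Ay ^ 2) (ht : f * f = Ph At)
    (hb : f * (Ph Ax * Ph At * (Ph Ax)⁻¹) * f⁻¹ = Ph Ay * (Ph Ax * Ph At * (Ph Ax)⁻¹) * Ph At * Ph Ay ^ 2) :
    ac (Ph Ay) (ac f qII) = ac f qII ∧ ac (Ph At) (ac f qII) = ac f qII ∧
      ac (Ph At) (ac (Ph Ax)⁻¹ (ac f qII)) = ac (Ph Ax)⁻¹ (ac f qII) := by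
  obtain ⟨h1, h2, h3⟩ := m11_gen hy5 htt hy ht hb y_qII t_qII (by rw [ac_mul, ac_mul, tx_qII, ac_ac_inv])
  refine ⟨h1, h2, ?_⟩
  rw [ac_mul, ac_mul] at h3
  have h4 := congrArg (ac (Ph Ax)⁻¹) h3
  rwa [ac_inv_ac] at h4

/-! ### stability -/

/-- **`PGL₂(11)`** -/
theorem pgl_stab {h : E} (hx : h * Ph Ax * h⁻¹ = (Ph Ax)⁻¹) (hh : h * h = 1) {c : ZMod 3} (hq : ac h qI = c • qII) :
    h ∈ stabW (U4 ⊔ U1) := by
  have hxk : ∀ k : ℕ, h * Ph Ax ^ k = ((Ph Ax)⁻¹) ^ k * h := by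
    intro k
    rw [← hx, conj_pow]; group
  have hxs : ∀ k : ℕ, (Ph Ax)⁻¹ ^ k = Ph (Ax⁻¹ ^ k) := fun k => by rw [map_pow, map_inv]
  have hc : c ≠ 0 := by
    rintro rfl
    rw [zero_smul] at hq
    have h1 := ac_inv_ac h qI
    rw [hq] at h1
    exact qI_ne (h1.symm.trans (Matrix.mulVec_zero _))
  have hq' : ac h qII = c⁻¹ • qI := by
    have h1 : ac h (ac h qI) = qI := by rw [← ac_mul, hh, ac_one]
    rw [hq, ac_smul] at h1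
    rw [← h1, smul_smul, inv_mul_cancel₀ hc, one_smul]
  intro v hv
  obtain ⟨a, ha, b, hb, rfl⟩ := Submodule.mem_sup.1 hv
  rw [ac_add]
  refine Submodule.add_mem _ ?_ ?_
  · obtain ⟨d, rfl⟩ := span4 ha
    rw [ac_sum]
    refine Submodule.sum_mem _ fun k _ => ?_
    rw [ac_smul, ← ac_mul, hxk, ac_mul, hq, ac_smul, hxs]
    exact Submodule.smul_mem _ _ (Submodule.smul_mem _ _ (le_sup_right (a := U4) (Ph_U1 _ ⟨_, rfl⟩)))
  · obtain ⟨d, rfl⟩ := span1 hb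
    rw [ac_sum]
    refine Submodule.sum_mem _ fun k _ => ?_
    rw [ac_smul, ← ac_mul, hxk, ac_mul, hq', ac_smul, hxs]
    exact Submodule.smul_mem _ _ (Submodule.smul_mem _ _ (le_sup_left (a := U4) (Ph_U4 _ ⟨_, rfl⟩)))

theorem y_pow_x (k : Fin 5) : Ph Ax ^ e3 k = Ph Ay ^ (k : ℕ) * Ph Ax * (Ph Ay ^ (k : ℕ))⁻¹ := by
  have h0 : Ph Ay * Ph Ax * (Ph Ay)⁻¹ = Ph Ax ^ 3 := by rw [← map_inv, ← map_mul, ← map_mul, y_x', map_pow]
  have h11 : Ph Ax ^ 11 = 1 := by rw [← map_pow, x_pow, map_one]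
  have h : ∀ n : ℕ, Ph Ay ^ n * Ph Ax * (Ph Ay ^ n)⁻¹ = Ph Ax ^ 3 ^ n := by
    intro n
    induction n with
    | zero => simp
    | succ n ih =>
      have h1 : Ph Ay ^ (n + 1) * Ph Ax * (Ph Ay ^ (n + 1))⁻¹ = Ph Ay * (Ph Ay ^ n * Ph Ax * (Ph Ay ^ n)⁻¹) * (Ph Ay)⁻¹ := by
        rw [pow_succ']; group
      rw [h1, ih, ← conj_pow, h0, ← pow_mul, pow_succ']
  rw [h]
  have h2 : ∀ n : ℕ, Ph Ax ^ n = Ph Ax ^ (n % 11) := fun n => by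
    conv_lhs => rw [← Nat.mod_add_div n 11, pow_add, pow_mul, h11, one_pow, mul_one]
  have h3 : ∀ k : Fin 5, e3 k = 3 ^ (k : ℕ) % 11 := by decide
  rw [h2 (3 ^ _), ← h3]

theorem f_yk {f : E} (hy : f * Ph Ay * f⁻¹ = Ph Ay ^ 2) (k : ℕ) : f * Ph Ay ^ k = Ph ((Ay ^ 2) ^ k) * f := by
  rw [map_pow, map_pow, ← hy, conj_pow]; group

theorem yk_fix {q : L3} (hq : ac (Ph Ay) q = q) (k : ℕ) : ac (Ph Ay ^ k)⁻¹ q = q := by
  have h : ∀ n : ℕ, ac (Ph Ay ^ n) q = q := by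
    intro n
    induction n with
    | zero => rw [pow_zero, ac_one]
    | succ n ih => rw [pow_succ, ac_mul, hq, ih]
  conv_lhs => rw [← h k, ac_inv_ac]

/-- **`M₁₁`, case I** -/
theorem m11_stabI {f : E} (hy : f * Ph Ay * f⁻¹ = Ph Ay ^ 2) (hr : ac f (ac (Ph Ax) qI) ∈ U4) : f ∈ stabW U4 := by
  intro v hv
  obtain ⟨d, rfl⟩ := span5 hv
  rw [ac_sum]
  refine Submodule.sum_mem _ fun k _ => ?_
  rw [ac_smul]
  refine Submodule.smul_mem _ _ ?_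
  rw [y_pow_x, ac_mul, yk_fix y_qI, ac_mul, ← ac_mul f, f_yk hy, ac_mul]
  exact Ph_U4 _ hr

/-- **`M₁₁`, case II** -/
theorem m11_stabII {f : E} (hy : f * Ph Ay * f⁻¹ = Ph Ay ^ 2) (hq : ac f qII ∈ U1) (hr : ac f (ac (Ph Ax) qII) ∈ U1) :
    f ∈ stabW U1 := by
  intro v hv
  obtain ⟨c, d, rfl⟩ := span6 hv
  rw [ac_add, ac_smul, ac_sum]
  refine Submodule.add_mem _ (Submodule.smul_mem _ _ hq) (Submodule.sum_mem _ fun k _ => ?_)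
  rw [ac_smul]
  refine Submodule.smul_mem _ _ ?_
  rw [y_pow_x, ac_mul, yk_fix y_qII, ac_mul, ← ac_mul f, f_yk hy, ac_mul]
  exact Ph_U1 _ hr

end Cfsg.Agent.H64.E83
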