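import Cfsg.Agent.H992.E8X.Root

/-!
# Sparse vectors: the action of root elements of `E₈(3)` on the Lie algebra (helper64)

`vec l` : the vector of a sparse list of (root, integer coefficient); `xa r t l` : the list of `x_r(t) (vec l)`
(no entry `±r`); `eqv l l'` : equality modulo 3.
-/

set_option autoImplicit false

namespace Cfsg.Agent.H64.E83

open Matrix Cfsg Cfsg.Lie Cfsg.Agent.ChevalleyStructure Cfsg.Agent.ChevalleyStructure.Elts
open Cfsg.Agent.H992.E8X

/-- the matrix of an element -/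
abbrev mx (g : ↥(chevE8.group (ZMod 3))) : Matrix chevE8.Idx chevE8.Idx (ZMod 3) :=
  ((g : GL chevE8.Idx (ZMod 3)) : Matrix chevE8.Idx chevE8.Idx (ZMod 3))

/-- the Lie algebra -/
abbrev L3 : Type := chevE8.Idx → ZMod 3

/-- the root vector of index `k` -/
def er (k : ℕ) : L3 := fun i => match i with
  | Sum.inl _ => 0
  | Sum.inr u => if u.val = k then 1 else 0

theorem er_eq {k : ℕ} (hk : k < chevE8.nroots) : er k = Pi.single (Sum.inr ⟨k, hk⟩) 1 := by
  funext i
  rcases i with i | u
  · show (0 : ZMod 3) = _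
    rw [Pi.single_eq_of_ne (by simp)]
  · show (if u.val = k then (1 : ZMod 3) else 0) = _
    by_cases h : u = ⟨k, hk⟩
    · subst h
      rw [Pi.single_eq_same, if_pos rfl]
    · rw [Pi.single_eq_of_ne (fun h1 => h (Sum.inr.inj h1)), if_neg (fun h1 => h (Fin.ext h1))]

/-- the vector of a sparse list -/
def vec (l : List (ℕ × ℤ)) : L3 := (l.map fun p => (p.2 : ZMod 3) • er p.1).sum

theorem vec_nil : vec [] = 0 := rfl

theorem vec_cons (p : ℕ × ℤ) (l : List (ℕ × ℤ)) : vec (p :: l) = (p.2 : ZMod 3) • er p.1 + vec l := by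
  unfold vec; rw [List.map_cons, List.sum_cons]

theorem vec_append (l l' : List (ℕ × ℤ)) : vec (l ++ l') = vec l + vec l' := by
  unfold vec; rw [List.map_append, List.sum_append]

/-- entries of the chain table -/
def ch (r s : ℕ) : List (ℕ × Array (ℕ × ℤ)) := (chevE8.chain.getD r #[]).toList.filter (fun e => e.1 = s)

/-- the check of a column -/
def okc (r s : ℕ) : Bool :=
  Nat.blt r 240 && Nat.blt s 240 && !(Nat.beq s r) && !(Nat.beq s (chevE8.negIdx.getD r 0)) &&
    (match ch r s with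
      | [] => true
      | [e] => (match e.2.toList with
        | [q] => Nat.blt q.1 240
        | _ => false)
      | _ => false)

/-- the image of a root vector minus itself -/
def dx (r : ℕ) (t : ℤ) (s : ℕ) : List (ℕ × ℤ) :=
  match ch r s with
    | [e] => (match e.2.toList with
      | [q] => [(q.1, q.2 * t)]
      | _ => [])
    | _ => []

theorem X_er {r s : ℕ} (h : okc r s = true) (t : ℤ) :
    mx (X r (t : ZMod 3)) *ᵥ er s = er s + vec (dx r t s) := by
  unfold okc at h
  simp only [Bool.and_eq_true, Bool.not_eq_true'] at h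
  obtain ⟨⟨⟨⟨h1, h2⟩, h3⟩, h4⟩, h5⟩ := h
  have hr : r < chevE8.nroots := Nat.le_of_ble_eq_true h1
  have hs : s < chevE8.nroots := Nat.le_of_ble_eq_true h2
  have hsr : s ≠ r := Nat.ne_of_beq_eq_false h3
  have hsn : s ≠ chevE8.negIdx.getD r 0 := Nat.ne_of_beq_eq_false h4
  rw [er_eq hs]
  have e1 : mx (X r (t : ZMod 3)) = chevE8.xMat (ZMod 3) ⟨r, hr⟩ (t : ZMod 3) := by
    show chevE8.x (ZMod 3) r (t : ZMod 3) = _
    exact x_of_lt hr _
  rw [e1, Matrix.mulVec_single_one]
  have hcol : ∀ u : Fin chevE8.nroots, (chevE8.xMat (ZMod 3) ⟨r, hr⟩ (t : ZMod 3)).col (Sum.inr ⟨s, hs⟩) (Sum.inr u) =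
      (if u = (⟨s, hs⟩ : Fin chevE8.nroots) then 1 else 0) +
        ((chevE8.chainCoeff r s u.val).map fun km => ((km.2 : ℤ) : ZMod 3) * (t : ZMod 3) ^ km.1).sum := by
    intro u
    show (if (⟨s, hs⟩ : Fin chevE8.nroots) = ⟨r, hr⟩ then (if u = (⟨r, hr⟩ : Fin chevE8.nroots) then (1 : ZMod 3) else 0) else
      if s = chevE8.negIdx.getD r 0 then _ else _) = _
    rw [if_neg (fun h => hsr (Fin.mk.inj h)), if_neg hsn]
  have hcol0 : ∀ i : Fin chevE8.rank, (chevE8.xMat (ZMod 3) ⟨r, hr⟩ (t : ZMod 3)).col (Sum.inr ⟨s, hs⟩) (Sum.inl i) = 0 := by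
    intro i
    show (if (⟨s, hs⟩ : Fin chevE8.nroots) = ⟨r, hr⟩ then (0 : ZMod 3) else
      if s = chevE8.negIdx.getD r 0 then _ else (0 : ZMod 3)) = 0
    rw [if_neg (fun h => hsr (Fin.mk.inj h)), if_neg hsn]
  have hcc : ∀ u : ℕ, chevE8.chainCoeff r s u = (ch r s).flatMap fun e =>
      ((e.2.toList.zipIdx).filter (fun q => q.1.1 = u)).map fun q => (q.2 + 1, q.1.2) := fun u => rfl
  unfold dx
  rcases hch : ch r s with _ | ⟨e, _ | ⟨e', l⟩⟩
  · show _ = _ + vec []
    rw [vec_nil, add_zero]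
    funext i
    rcases i with i | u
    · rw [hcol0, Pi.single_eq_of_ne (by simp)]
    · rw [hcol, hcc, hch]
      simp only [List.flatMap_nil, List.map_nil, List.sum_nil, add_zero]
      by_cases hu : u = ⟨s, hs⟩
      · subst hu; rw [if_pos rfl, Pi.single_eq_same]
      · rw [if_neg hu, Pi.single_eq_of_ne (fun h => hu (Sum.inr.inj h))]
  · rw [hch] at h5
    dsimp only at h5 ⊢
    rcases he : e.2.toList with _ | ⟨q, _ | ⟨q', l⟩⟩
    · rw [he] at h5; exact absurd h5 (by simp)
    · rw [he] at h5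
      dsimp only at h5 ⊢
      have hq : q.1 < chevE8.nroots := Nat.le_of_ble_eq_true h5
      rw [vec_cons, vec_nil, add_zero, er_eq hq]
      funext i
      rcases i with i | u
      · rw [hcol0, Pi.add_apply, Pi.smul_apply, Pi.single_eq_of_ne (by simp), Pi.single_eq_of_ne (by simp), smul_zero,
          add_zero]
      · rw [hcol, hcc, hch, Pi.add_apply, Pi.smul_apply]
        simp only [List.flatMap_cons, List.flatMap_nil, List.append_nil, he, List.zipIdx_singleton]
        refine congrArg₂ (· + ·) ?_ ?_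
        · by_cases hu : u = ⟨s, hs⟩
          · subst hu; rw [if_pos rfl, Pi.single_eq_same]
          · rw [if_neg hu, Pi.single_eq_of_ne (fun h => hu (Sum.inr.inj h))]
        · by_cases hu : u = ⟨q.1, hq⟩
          · subst hu
            rw [Pi.single_eq_same]
            simp
          · have hu' : ¬ (q.1 = u.val) := fun h => hu (Fin.ext h.symm)
            rw [Pi.single_eq_of_ne (fun h => hu (Sum.inr.inj h))]
            simp [hu']
    · rw [he] at h5; exact absurd h5 (by simp)
  · rw [hch] at h5; exact absurd h5 (by simp)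

/-- the action on sparse lists -/
def xa (r : ℕ) (t : ℤ) : List (ℕ × ℤ) → List (ℕ × ℤ)
  | [] => []
  | p :: l => p :: ((dx r t p.1).map fun q => (q.1, p.2 * q.2)) ++ xa r t l

/-- the check -/
def okl (r : ℕ) (l : List (ℕ × ℤ)) : Bool := l.all fun p => okc r p.1

theorem vec_smul (c : ℤ) (l : List (ℕ × ℤ)) : vec (l.map fun q => (q.1, c * q.2)) = (c : ZMod 3) • vec l := by
  induction l with
  | nil => rw [List.map_nil, vec_nil, smul_zero]
  | cons p l ih => rw [List.map_cons, vec_cons, vec_cons, ih, smul_add, smul_smul, Int.cast_mul]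

theorem X_vec {r : ℕ} {l : List (ℕ × ℤ)} (h : okl r l = true) (t : ℤ) :
    mx (X r (t : ZMod 3)) *ᵥ vec l = vec (xa r t l) := by
  induction l with
  | nil => show _ *ᵥ (0 : L3) = 0; exact Matrix.mulVec_zero _
  | cons p l ih =>
    unfold okl at h
    rw [List.all_cons, Bool.and_eq_true] at h
    show _ = vec (p :: (((dx r t p.1).map fun q => (q.1, p.2 * q.2)) ++ xa r t l))
    rw [vec_cons, vec_cons, vec_append, vec_smul, ← ih h.2, Matrix.mulVec_add, Matrix.mulVec_smul,
      X_er h.1, smul_add, add_assoc]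

/-- the coefficient -/
def cf (l : List (ℕ × ℤ)) (k : ℕ) : ℤ := (l.map fun p => if p.1 = k then p.2 else 0).sum

theorem vec_inl (l : List (ℕ × ℤ)) (i : Fin chevE8.rank) : vec l (Sum.inl i) = 0 := by
  induction l with
  | nil => rfl
  | cons p l ih => rw [vec_cons, Pi.add_apply, ih, add_zero]; exact mul_zero _

theorem vec_inr (l : List (ℕ × ℤ)) (u : Fin chevE8.nroots) : vec l (Sum.inr u) = (cf l u.val : ZMod 3) := by
  induction l with
  | nil => show (0 : ZMod 3) = _; simp [cf]
  | cons p l ih =>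
    rw [vec_cons, Pi.add_apply, ih]
    show (p.2 : ZMod 3) • (if u.val = p.1 then (1 : ZMod 3) else 0) + _ = _
    unfold cf
    rw [List.map_cons, List.sum_cons]
    by_cases h : u.val = p.1
    · rw [if_pos h, if_pos h.symm, smul_eq_mul, mul_one, Int.cast_add]
    · rw [if_neg h, if_neg (fun h1 => h h1.symm), smul_zero, zero_add, zero_add]

theorem cf_zero {l : List (ℕ × ℤ)} {k : ℕ} (h : ∀ p ∈ l, p.1 ≠ k) : cf l k = 0 := by
  induction l with
  | nil => rfl
  | cons p l ih =>
    unfold cf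
    rw [List.map_cons, List.sum_cons, if_neg (h p (List.mem_cons_self ..)), zero_add]
    exact ih fun q hq => h q (List.mem_cons_of_mem _ hq)

/-- equality modulo 3 -/
def eqv (l l' : List (ℕ × ℤ)) : Bool := (l ++ l').all fun p => decide ((cf l p.1 - cf l' p.1) % 3 = 0)

theorem vec_eq {l l' : List (ℕ × ℤ)} (h : eqv l l' = true) : vec l = vec l' := by
  unfold eqv at h
  rw [List.all_eq_true] at h
  funext i
  rcases i with i | u
  · rw [vec_inl, vec_inl]
  · rw [vec_inr, vec_inr]
    by_cases hu : ∃ p ∈ l ++ l', p.1 = u.val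
    · obtain ⟨p, hp, hpu⟩ := hu
      have h1 := of_decide_eq_true (h p hp)
      rw [hpu] at h1
      have h2 : ((3 : ℕ) : ℤ) ∣ cf l u.val - cf l' u.val := Int.dvd_of_emod_eq_zero h1
      exact sub_eq_zero.1 (by rw [← Int.cast_sub]; exact (ZMod.intCast_zmod_eq_zero_iff_dvd _ 3).2 h2)
    · have h1 : ∀ p ∈ l, p.1 ≠ u.val := fun p hp h2 => hu ⟨p, List.mem_append_left _ hp, h2⟩
      have h2 : ∀ p ∈ l', p.1 ≠ u.val := fun p hp h2 => hu ⟨p, List.mem_append_right _ hp, h2⟩
      rw [cf_zero h1, cf_zero h2]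

end Cfsg.Agent.H64.E83
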