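import Cfsg.Agent.H64.E83.Orb
import Cfsg.Agent.H332.E83.Card

/-!
# S5925: the end of the three cases `L₂(11)`, `PGL₂(11)`, `M₁₁` (helper64)

The inputs are the conjugacy of the triples (`hconj`), the lines (`uI`, `uII` : the vectors with the invariant property `P` in the fixed
spaces of `A_I`, `A_II`) and for `M₁₁` the conclusion of the linear system.
-/

set_option autoImplicit false
set_option maxRecDepth 20000
set_option maxHeartbeats 400000

namespace Cfsg.Agent.H64.E83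

open Matrix Cfsg Cfsg.Lie
open Cfsg.Agent.H788.E83 (SL5 As Ax Ay At)

/-! ### conjugation of subgroups -/

/-- the conjugate -/
def cjH (g : E) (H : Subgroup E) : Subgroup E := H.map (MulAut.conj g).toMonoidHom

theorem cjH_coatom {g : E} {H : Subgroup E} (hH : IsCoatom H) : IsCoatom (cjH g H) :=
  (OrderIso.isCoatom_iff (MulEquiv.mapSubgroup (MulAut.conj g)) H).2 hH

theorem cjH_card (g : E) (H : Subgroup E) : Nat.card (cjH g H) = Nat.card H := by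
  unfold cjH
  exact (Nat.card_congr (H.equivMapOfInjective (MulAut.conj g).toMonoidHom (MulAut.conj g).injective).toEquiv).symm

theorem mem_cjH {g a : E} {H : Subgroup E} (ha : a ∈ H) : g * a * g⁻¹ ∈ cjH g H := ⟨a, ha, rfl⟩

/-- generators of the conjugate -/
theorem cjH_le {g : E} {H K : Subgroup E} {S : Set E} (hS : H ≤ Subgroup.closure S) (hK : ∀ s ∈ S, g * s * g⁻¹ ∈ K) :
    cjH g H ≤ K := by
  have h1 : Subgroup.closure S ≤ K.comap (MulAut.conj g).toMonoidHom := (Subgroup.closure_le _).2 fun s hs => hK s hs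
  exact Subgroup.map_le_iff_le_comap.2 (hS.trans h1)

theorem le_closure_of_top {H : Subgroup E} {S : Set H} (h : Subgroup.closure S = ⊤) :
    H ≤ Subgroup.closure ((fun a : H => (a : E)) '' S) := by
  have h1 := congrArg (Subgroup.map H.subtype) h
  rw [MonoidHom.map_closure, ← MonoidHom.range_eq_map, Subgroup.range_subtype] at h1
  exact h1.ge

/-! ### the special vectors -/

theorem pgl_q (P : L3 → Prop) (hP : ∀ (g : E) v, P v → P (ac g v)) (hI : P qI)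
    (uII : ∀ v, ac (Ph Ay) v = v → ac (Ph At) v = v → ac (Ph At) (ac (Ph Ax)⁻¹ v) = ac (Ph Ax)⁻¹ v → P v →
      ∃ c : ZMod 3, v = c • qII)
    {h : E} (hx : h * Ph Ax * h⁻¹ = (Ph Ax)⁻¹) (hy : h * Ph Ay = Ph Ay * h) (ht : h * Ph At = Ph At * h) :
    ∃ c : ZMod 3, ac h qI = c • qII := by
  obtain ⟨h1, h2, h3⟩ := pgl_fix hx hy ht
  exact uII _ h1 h2 h3 (hP _ _ hI)

theorem m11_qII (P : L3 → Prop) (hP : ∀ (g : E) v, P v → P (ac g v)) (hII : P qII)
    (uII : ∀ v, ac (Ph Ay) v = v → ac (Ph At) v = v → ac (Ph At) (ac (Ph Ax)⁻¹ v) = ac (Ph Ax)⁻¹ v → P v →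
      ∃ c : ZMod 3, v = c • qII)
    {f : E} (hy : f * Ph Ay * f⁻¹ = Ph Ay ^ 2) (ht : f * f = Ph At)
    (hb : f * (Ph Ax * Ph At * (Ph Ax)⁻¹) * f⁻¹ = Ph Ay * (Ph Ax * Ph At * (Ph Ax)⁻¹) * Ph At * Ph Ay ^ 2) :
    ∃ c : ZMod 3, ac f qII = c • qII := by
  obtain ⟨h1, h2, h3⟩ := m11_fixII hy ht hb
  exact uII _ h1 h2 h3 (hP _ _ hII)

/-! ### the three cases -/

theorem end_s {H : Subgroup E} (hH : IsCoatom H) {x y t g : E} (hgen : H ≤ Subgroup.closure {x, y, t})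
    (hx : g * x * g⁻¹ = Ph Ax) (hy : g * y * g⁻¹ = Ph Ay) (ht : g * t * g⁻¹ = Ph At) : 121 ∣ Nat.card H := by
  rw [← cjH_card g H]
  refine dvd_of_stab (cjH_coatom hH) Ph_stab4 ne_top4 (cjH_le hgen ?_)
  rintro s (rfl | rfl | rfl)
  · rw [hx]; exact Ph_stab4 _
  · rw [hy]; exact Ph_stab4 _
  · rw [ht]; exact Ph_stab4 _

theorem end_pgl {H : Subgroup E} (hH : IsCoatom H) {x y t h g : E} (hgen : H ≤ Subgroup.closure {x, y, t, h})
    (hx : g * x * g⁻¹ = Ph Ax) (hy : g * y * g⁻¹ = Ph Ay) (ht : g * t * g⁻¹ = Ph At)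
    (hh : h * h = 1) (h1 : h * x * h⁻¹ = x⁻¹) (h2 : h * y = y * h) (h3 : h * t = t * h)
    (hq : ∀ k : E, k * Ph Ax * k⁻¹ = (Ph Ax)⁻¹ → k * Ph Ay = Ph Ay * k → k * Ph At = Ph At * k →
      ∃ c : ZMod 3, ac k qI = c • qII) : 121 ∣ Nat.card H := by
  have cm : ∀ a b : E, (g * a * g⁻¹) * (g * b * g⁻¹) = g * (a * b) * g⁻¹ := fun a b => by group
  have k1 : (g * h * g⁻¹) * Ph Ax * (g * h * g⁻¹)⁻¹ = (Ph Ax)⁻¹ := by
    rw [← hx]
    have e1 : (g * h * g⁻¹) * (g * x * g⁻¹) * (g * h * g⁻¹)⁻¹ = g * (h * x * h⁻¹) * g⁻¹ := by group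
    rw [e1, h1]; group
  have k2 : (g * h * g⁻¹) * Ph Ay = Ph Ay * (g * h * g⁻¹) := by rw [← hy, cm, cm, h2]
  have k3 : (g * h * g⁻¹) * Ph At = Ph At * (g * h * g⁻¹) := by rw [← ht, cm, cm, h3]
  have k4 : (g * h * g⁻¹) * (g * h * g⁻¹) = 1 := by rw [cm, hh]; group
  obtain ⟨c, hc⟩ := hq _ k1 k2 k3
  rw [← cjH_card g H]
  refine dvd_of_stab (cjH_coatom hH) Ph_stab41 ne_top41 (cjH_le hgen ?_)
  rintro s (rfl | rfl | rfl | rfl)
  · rw [hx]; exact Ph_stab41 _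
  · rw [hy]; exact Ph_stab41 _
  · rw [ht]; exact Ph_stab41 _
  · exact pgl_stab k1 k4 hc

theorem end_m11 {H : Subgroup E} (hH : IsCoatom H) {x y t f g : E} (hgen : H ≤ Subgroup.closure {x, y, t, f})
    (hx : g * x * g⁻¹ = Ph Ax) (hy : g * y * g⁻¹ = Ph Ay) (ht : g * t * g⁻¹ = Ph At)
    (hf : g * f * g⁻¹ ∈ stabW U1) : 121 ∣ Nat.card H := by
  rw [← cjH_card g H]
  refine dvd_of_stab (cjH_coatom hH) Ph_stab1 ne_top1 (cjH_le hgen ?_)
  rintro s (rfl | rfl | rfl | rfl)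
  · rw [hx]; exact Ph_stab1 _
  · rw [hy]; exact Ph_stab1 _
  · rw [ht]; exact Ph_stab1 _
  · exact hf

/-- **`L₂(11)` and `PGL₂(11)`** -/
theorem end_psl {H : Subgroup E} {F : Type*} [Field F] [Fintype F] (hF : Fintype.card F = 11)
    (e : Nonempty (↥(generalizedFittingSubgroup H) ≃* ProjectiveSpecialLinearGroup (Fin 2) F))
    (hconj : ∀ x y t : H, H828.E83.Rel x y t →
      ∃ g : E, g * (x : E) * g⁻¹ = Ph Ax ∧ g * (y : E) * g⁻¹ = Ph Ay ∧ g * (t : E) * g⁻¹ = Ph At)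
    (hq : ∀ k : E, k * Ph Ax * k⁻¹ = (Ph Ax)⁻¹ → k * Ph Ay = Ph Ay * k → k * Ph At = Ph At * k →
      ∃ c : ZMod 3, ac k qI = c • qII) : ¬ IsCoatom H := by
  intro hH
  obtain ⟨x, y, t, hR, h⟩ := H828.E83.psl hF e
  obtain ⟨g, gx, gy, gt⟩ := hconj x y t hR
  refine H332.E83.card_psl hF e ?_
  rcases h with h | ⟨k, _, kk, kx, ky, kt, h⟩
  · have h1 := le_closure_of_top h
    rw [Set.image_insert_eq, Set.image_pair] at h1
    exact end_s hH h1 gx gy gt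
  · have h1 := le_closure_of_top h
    rw [Set.image_insert_eq, Set.image_insert_eq, Set.image_pair] at h1
    have e1 : (k : E) * k = 1 := by rw [← Subgroup.coe_mul, kk, Subgroup.coe_one]
    have e2 : (k : E) * x * (k : E)⁻¹ = (x : E)⁻¹ := by
      rw [← Subgroup.coe_inv, ← Subgroup.coe_mul, ← Subgroup.coe_mul, kx, Subgroup.coe_inv]
    have e3 : (k : E) * y = y * k := by rw [← Subgroup.coe_mul, ky, Subgroup.coe_mul]
    have e4 : (k : E) * t = t * k := by rw [← Subgroup.coe_mul, kt, Subgroup.coe_mul]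
    exact end_pgl hH h1 gx gy gt e1 e2 e3 e4 hq

end Cfsg.Agent.H64.E83
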