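import Cfsg.Agent.H238.E8.Frame
import Cfsg.Agent.H788.E83.Mat
import Cfsg.Agent.H64.E83.Act

/-!
# The two 5-dimensional submodules of `φ(SL₅(3))` in the Lie algebra of `E₈(3)` (helper64)

`Ph : SL₅(3) →* E₈(3)`, `Ph A = ph2 A * ph1 (A⁻¹)ᵀ`; `i4`, `i1` : the embeddings of `V`, `V*`:
`Ph A · i4 w = i4 (A w)`, `Ph A · i1 w = i1 ((A⁻¹)ᵀ w)`.
-/

set_option autoImplicit false

namespace Cfsg.Agent.H64.E83

open Matrix Cfsg Cfsg.Lie Cfsg.Agent.ChevalleyStructure Cfsg.Agent.ChevalleyStructure.Elts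
open Cfsg.Agent.H992.E8X Cfsg.Agent.H238.E8
open Cfsg.Agent.H788.E83 (SL5 it it_transvection As Ax Ay At Afa Afb)


/-- the diagonal embedding -/
noncomputable def Ph : SL5 →* ↥(chevE8.group (ZMod 3)) where
  toFun A := ph2 (ZMod 3) A * ph1 (ZMod 3) (it (ZMod 3) A)
  map_one' := by rw [map_one, map_one, map_one, one_mul]
  map_mul' A B := by
    rw [map_mul, map_mul, map_mul]
    have h : ph2 (ZMod 3) B * ph1 (ZMod 3) (it (ZMod 3) A) = ph1 (ZMod 3) (it (ZMod 3) A) * ph2 (ZMod 3) B :=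
      (ph_comm (ZMod 3) (it (ZMod 3) A) B).eq.symm
    rw [mul_assoc, mul_assoc, ← mul_assoc (ph2 (ZMod 3) B), h, ← mul_assoc, ← mul_assoc, ← mul_assoc, ← mul_assoc]

theorem Ph_apply (A : SL5) : Ph A = ph2 (ZMod 3) A * ph1 (ZMod 3) (it (ZMod 3) A) := rfl

theorem Ph_tv {i j : Fin 5} (hij : i ≠ j) (c : ZMod 3) :
    Ph (SpecialLinearGroup.transvection hij c) =
      X (rt2 i j) ((sg2 i j : ZMod 3) * c) * X (rt1 j i) ((sg1 j i : ZMod 3) * (-c)) := by
  rw [Ph_apply, it_transvection, ph2_tv, ph1_tv]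

theorem Ph_tv_int {i j : Fin 5} (hij : i ≠ j) (c : ℤ) :
    Ph (SpecialLinearGroup.transvection hij (c : ZMod 3)) =
      X (rt2 i j) ((sg2 i j * c : ℤ) : ZMod 3) * X (rt1 j i) ((sg1 j i * (-c) : ℤ) : ZMod 3) := by
  rw [Ph_tv, Int.cast_mul, Int.cast_mul, Int.cast_neg]

/-- the basis of `V` -/
def vb : Fin 5 → List (ℕ × ℤ) := ![[(74, 1), (68, 1), (63, 1), (52, 1)], [(102, 2), (90, 2), (85, 2), (218, 1)],
  [(108, 1), (95, 2), (223, 2), (84, 1)], [(113, 2), (224, 1), (94, 1), (88, 1)], [(225, 2), (112, 1), (106, 2), (99, 1)]]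

/-- the basis of `V*` -/
def fb : Fin 5 → List (ℕ × ℤ) := ![[(187, 1), (165, 1), (176, 1), (171, 1)], [(21, 1), (137, 2), (154, 2), (149, 2)],
  [(155, 1), (131, 1), (16, 2), (144, 2)], [(151, 1), (126, 2), (145, 1), (15, 1)], [(140, 1), (14, 2), (133, 2), (127, 1)]]

/-- the check of the action of a transvection on a list -/
def okt (i j : Fin 5) (c : ℤ) (l l' : List (ℕ × ℤ)) : Bool :=
  okl (rt1 j i) l && okl (rt2 i j) (xa (rt1 j i) (sg1 j i * (-c)) l) &&
    eqv (xa (rt2 i j) (sg2 i j * c) (xa (rt1 j i) (sg1 j i * (-c)) l)) l'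

theorem mx_mul (g h : ↥(chevE8.group (ZMod 3))) : mx (g * h) = mx g * mx h := rfl

theorem Ph_vec {i j : Fin 5} (hij : i ≠ j) {c : ℤ} {l l' : List (ℕ × ℤ)} (h : okt i j c l l' = true) :
    mx (Ph (SpecialLinearGroup.transvection hij (c : ZMod 3))) *ᵥ vec l = vec l' := by
  unfold okt at h
  rw [Bool.and_eq_true, Bool.and_eq_true] at h
  obtain ⟨⟨h1, h2⟩, h3⟩ := h
  rw [Ph_tv_int, mx_mul, ← Matrix.mulVec_mulVec, X_vec h1, X_vec h2]
  exact vec_eq h3

theorem chk4 : ∀ i j m : Fin 5, i ≠ j → ∀ c : Fin 3, okt i j (c.val : ℤ) (vb m)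
    (if m = j then vb m ++ (vb i).map (fun q => (q.1, (c.val : ℤ) * q.2)) else vb m) = true := by decide +kernel

theorem chk1 : ∀ i j m : Fin 5, i ≠ j → ∀ c : Fin 3, okt i j (c.val : ℤ) (fb m)
    (if m = i then fb m ++ (fb j).map (fun q => (q.1, (-(c.val : ℤ)) * q.2)) else fb m) = true := by decide +kernel

/-- the embedding of `V` -/
def i4 (w : Fin 5 → ZMod 3) : L3 := ∑ m, w m • vec (vb m)

/-- the embedding of `V*` -/
def i1 (w : Fin 5 → ZMod 3) : L3 := ∑ m, w m • vec (fb m)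

theorem i4_add (w w' : Fin 5 → ZMod 3) : i4 (w + w') = i4 w + i4 w' := by
  unfold i4; rw [← Finset.sum_add_distrib]; exact Finset.sum_congr rfl fun m _ => add_smul _ _ _

theorem i1_add (w w' : Fin 5 → ZMod 3) : i1 (w + w') = i1 w + i1 w' := by
  unfold i1; rw [← Finset.sum_add_distrib]; exact Finset.sum_congr rfl fun m _ => add_smul _ _ _

theorem i4_smul (c : ZMod 3) (w : Fin 5 → ZMod 3) : i4 (c • w) = c • i4 w := by
  unfold i4; rw [Finset.smul_sum]; exact Finset.sum_congr rfl fun m _ => mul_smul _ _ _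

theorem i1_smul (c : ZMod 3) (w : Fin 5 → ZMod 3) : i1 (c • w) = c • i1 w := by
  unfold i1; rw [Finset.smul_sum]; exact Finset.sum_congr rfl fun m _ => mul_smul _ _ _

theorem int_of (c : ZMod 3) : ∃ n : Fin 3, ((n.val : ℤ) : ZMod 3) = c := by revert c; decide

theorem Ph_vb {i j : Fin 5} (hij : i ≠ j) (c : ZMod 3) (m : Fin 5) :
    mx (Ph (SpecialLinearGroup.transvection hij c)) *ᵥ vec (vb m) = vec (vb m) + (if m = j then c else 0) • vec (vb i) := by
  obtain ⟨n, rfl⟩ := int_of c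
  rw [Ph_vec hij (chk4 i j m hij n)]
  by_cases h : m = j
  · rw [if_pos h, if_pos h, vec_append, vec_smul]
  · rw [if_neg h, if_neg h, zero_smul, add_zero]

theorem Ph_fb {i j : Fin 5} (hij : i ≠ j) (c : ZMod 3) (m : Fin 5) :
    mx (Ph (SpecialLinearGroup.transvection hij c)) *ᵥ vec (fb m) = vec (fb m) + (if m = i then -c else 0) • vec (fb j) := by
  obtain ⟨n, rfl⟩ := int_of c
  rw [Ph_vec hij (chk1 i j m hij n)]
  by_cases h : m = i
  · rw [if_pos h, if_pos h, vec_append, vec_smul, Int.cast_neg]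
  · rw [if_neg h, if_neg h, zero_smul, add_zero]

theorem tv_mulVec (i j : Fin 5) (c : ZMod 3) (w : Fin 5 → ZMod 3) :
    Matrix.transvection i j c *ᵥ w = w + (c * w j) • Pi.single i (1 : ZMod 3) := by
  funext a
  rw [Matrix.transvection, Matrix.add_mulVec, Matrix.one_mulVec, Pi.add_apply, Pi.add_apply, Matrix.single_mulVec]
  congr 1
  rw [Pi.smul_apply, smul_eq_mul, Function.update_apply, Pi.single_apply]
  split_ifs
  · rw [mul_one]
  · rw [mul_zero]; rfl

theorem act4 (A : SL5) (w : Fin 5 → ZMod 3) : mx (Ph A) *ᵥ i4 w = i4 (A.1 *ᵥ w) := by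
  revert w
  refine tv_ind (fun A => ∀ w : Fin 5 → ZMod 3, mx (Ph A) *ᵥ i4 w = i4 (A.1 *ᵥ w)) ?_ ?_ A
  · intro i j hij c w
    show _ = i4 (Matrix.transvection i j c *ᵥ w)
    rw [tv_mulVec, i4_add, i4_smul]
    have h1 : i4 (Pi.single i 1) = vec (vb i) := by
      unfold i4
      rw [Finset.sum_eq_single i (fun m _ hm => by rw [Pi.single_eq_of_ne hm, zero_smul]) (fun h => absurd (Finset.mem_univ _) h),
        Pi.single_eq_same, one_smul]
    rw [h1]
    unfold i4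
    rw [Matrix.mulVec_sum]
    have h2 : ∀ m, mx (Ph (SpecialLinearGroup.transvection hij c)) *ᵥ (w m • vec (vb m)) =
        w m • vec (vb m) + (if m = j then c * w m else 0) • vec (vb i) := by
      intro m
      rw [Matrix.mulVec_smul, Ph_vb, smul_add, smul_smul]
      congr 2
      split_ifs
      · exact mul_comm _ _
      · exact mul_zero _
    rw [Finset.sum_congr rfl fun m _ => h2 m, Finset.sum_add_distrib, ← Finset.sum_smul]
    congr 2
    rw [Finset.sum_ite_eq' Finset.univ j (fun m => c * w m), if_pos (Finset.mem_univ _)]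
  · intro A B hA hB w
    rw [map_mul, mx_mul, ← Matrix.mulVec_mulVec, hB, hA]
    show _ = i4 ((A.1 * B.1) *ᵥ w)
    rw [← Matrix.mulVec_mulVec]

theorem act1 (A : SL5) (w : Fin 5 → ZMod 3) : mx (Ph A) *ᵥ i1 w = i1 ((it (ZMod 3) A).1 *ᵥ w) := by
  revert w
  refine tv_ind (fun A => ∀ w : Fin 5 → ZMod 3, mx (Ph A) *ᵥ i1 w = i1 ((it (ZMod 3) A).1 *ᵥ w)) ?_ ?_ A
  · intro i j hij c w
    rw [it_transvection]
    show _ = i1 (Matrix.transvection j i (-c) *ᵥ w)
    rw [tv_mulVec, i1_add, i1_smul]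
    have h1 : i1 (Pi.single j 1) = vec (fb j) := by
      unfold i1
      rw [Finset.sum_eq_single j (fun m _ hm => by rw [Pi.single_eq_of_ne hm, zero_smul]) (fun h => absurd (Finset.mem_univ _) h),
        Pi.single_eq_same, one_smul]
    rw [h1]
    unfold i1
    rw [Matrix.mulVec_sum]
    have h2 : ∀ m, mx (Ph (SpecialLinearGroup.transvection hij c)) *ᵥ (w m • vec (fb m)) =
        w m • vec (fb m) + (if m = i then -c * w m else 0) • vec (fb j) := by
      intro m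
      rw [Matrix.mulVec_smul, Ph_fb, smul_add, smul_smul]
      congr 2
      split_ifs
      · exact mul_comm _ _
      · exact mul_zero _
    rw [Finset.sum_congr rfl fun m _ => h2 m, Finset.sum_add_distrib, ← Finset.sum_smul]
    congr 2
    rw [Finset.sum_ite_eq' Finset.univ i (fun m => -c * w m), if_pos (Finset.mem_univ _)]
  · intro A B hA hB w
    rw [map_mul, mx_mul, ← Matrix.mulVec_mulVec, hB, hA, map_mul]
    show _ = i1 (((it (ZMod 3) A).1 * (it (ZMod 3) B).1) *ᵥ w)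
    rw [← Matrix.mulVec_mulVec]

end Cfsg.Agent.H64.E83
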