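import Cfsg.Agent.H64.E83.Iota

/-!
# The stabilisers of the two 5-dimensional submodules in `E₈(3)` (helper64)
-/

set_option autoImplicit false

namespace Cfsg.Agent.H64.E83

open Matrix Cfsg Cfsg.Lie Cfsg.Agent.ChevalleyStructure Cfsg.Agent.ChevalleyStructure.Elts
open Cfsg.Agent.H992.E8X Cfsg.Agent.H238.E8
open Cfsg.Agent.H788.E83 (SL5 it it_transvection As Ax Ay At Afa Afb Ax_eq order_s)

/-- `E₈(3)` -/
abbrev E : Type := ↥(chevE8.group (ZMod 3))

/-- the action -/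
abbrev ac (g : E) (v : L3) : L3 := mx g *ᵥ v

theorem ac_one (v : L3) : ac 1 v = v := Matrix.one_mulVec v

theorem ac_mul (g h : E) (v : L3) : ac (g * h) v = ac g (ac h v) := by
  show (mx g * mx h) *ᵥ v = _
  rw [← Matrix.mulVec_mulVec]

theorem ac_inv_ac (g : E) (v : L3) : ac g⁻¹ (ac g v) = v := by rw [← ac_mul, inv_mul_cancel, ac_one]

theorem ac_ac_inv (g : E) (v : L3) : ac g (ac g⁻¹ v) = v := by rw [← ac_mul, mul_inv_cancel, ac_one]

theorem ac_add (g : E) (v w : L3) : ac g (v + w) = ac g v + ac g w := Matrix.mulVec_add _ _ _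

theorem ac_smul (g : E) (c : ZMod 3) (v : L3) : ac g (c • v) = c • ac g v := Matrix.mulVec_smul _ _ _

theorem ac_sum (g : E) {ι : Type*} (s : Finset ι) (f : ι → L3) : ac g (∑ i ∈ s, f i) = ∑ i ∈ s, ac g (f i) :=
  Matrix.mulVec_sum _ _ _

/-- `U_I` -/
def U4 : Submodule (ZMod 3) L3 where
  carrier := {v | ∃ w, i4 w = v}
  zero_mem' := ⟨0, by rw [← zero_smul (ZMod 3) (0 : Fin 5 → ZMod 3), i4_smul, zero_smul]⟩
  add_mem' := by
    rintro _ _ ⟨w, rfl⟩ ⟨w', rfl⟩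
    exact ⟨w + w', i4_add w w'⟩
  smul_mem' := by
    rintro c _ ⟨w, rfl⟩
    exact ⟨c • w, i4_smul c w⟩

/-- `U_II` -/
def U1 : Submodule (ZMod 3) L3 where
  carrier := {v | ∃ w, i1 w = v}
  zero_mem' := ⟨0, by rw [← zero_smul (ZMod 3) (0 : Fin 5 → ZMod 3), i1_smul, zero_smul]⟩
  add_mem' := by
    rintro _ _ ⟨w, rfl⟩ ⟨w', rfl⟩
    exact ⟨w + w', i1_add w w'⟩
  smul_mem' := by
    rintro c _ ⟨w, rfl⟩
    exact ⟨c • w, i1_smul c w⟩

theorem mem_U4 {v : L3} : v ∈ U4 ↔ ∃ w, i4 w = v := Iff.rfl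

theorem mem_U1 {v : L3} : v ∈ U1 ↔ ∃ w, i1 w = v := Iff.rfl

theorem Ph_U4 (A : SL5) {v : L3} (hv : v ∈ U4) : ac (Ph A) v ∈ U4 := by
  obtain ⟨w, rfl⟩ := hv
  exact ⟨_, (act4 A w).symm⟩

theorem Ph_U1 (A : SL5) {v : L3} (hv : v ∈ U1) : ac (Ph A) v ∈ U1 := by
  obtain ⟨w, rfl⟩ := hv
  exact ⟨_, (act1 A w).symm⟩

/-! ### coordinates -/

theorem i4_inr (w : Fin 5 → ZMod 3) (u : Fin chevE8.nroots) : i4 w (Sum.inr u) = ∑ m, w m * (cf (vb m) u.val : ZMod 3) := by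
  unfold i4
  rw [Finset.sum_apply]
  exact Finset.sum_congr rfl fun m _ => by rw [Pi.smul_apply, vec_inr, smul_eq_mul]

theorem i1_inr (w : Fin 5 → ZMod 3) (u : Fin chevE8.nroots) : i1 w (Sum.inr u) = ∑ m, w m * (cf (fb m) u.val : ZMod 3) := by
  unfold i1
  rw [Finset.sum_apply]
  exact Finset.sum_congr rfl fun m _ => by rw [Pi.smul_apply, vec_inr, smul_eq_mul]

/-- coordinates which are one on `vb m` and zero on the other basis vectors -/
def n4 : Fin 5 → ℕ := ![74, 218, 84, 88, 99]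

def n1 : Fin 5 → ℕ := ![187, 21, 155, 15, 140]

theorem n4_lt : ∀ n, n4 n < chevE8.nroots := by decide +kernel

theorem n1_lt : ∀ n, n1 n < chevE8.nroots := by decide +kernel

def p4 (n : Fin 5) : Fin chevE8.nroots := ⟨n4 n, n4_lt n⟩

def p1 (n : Fin 5) : Fin chevE8.nroots := ⟨n1 n, n1_lt n⟩

theorem p4_cf : ∀ m n : Fin 5, cf (vb m) (p4 n).val = if m = n then 1 else 0 := by decide +kernel

theorem p1_cf : ∀ m n : Fin 5, cf (fb m) (p1 n).val = if m = n then 1 else 0 := by decide +kernel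

theorem p41_cf : ∀ m n : Fin 5, cf (vb m) (p1 n).val = 0 ∧ cf (fb m) (p4 n).val = 0 := by decide +kernel

theorem i4_p4 (w : Fin 5 → ZMod 3) (n : Fin 5) : i4 w (Sum.inr (p4 n)) = w n := by
  rw [i4_inr]
  have h : ∀ m, w m * ((cf (vb m) (p4 n).val : ℤ) : ZMod 3) = if m = n then w n else 0 := by
    intro m
    rw [p4_cf]
    by_cases h : m = n
    · rw [if_pos h, if_pos h, h]; simp
    · rw [if_neg h, if_neg h]; simp
  rw [Finset.sum_congr rfl fun m _ => h m, Finset.sum_ite_eq' Finset.univ n fun _ => w n, if_pos (Finset.mem_univ _)]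

theorem i1_p1 (w : Fin 5 → ZMod 3) (n : Fin 5) : i1 w (Sum.inr (p1 n)) = w n := by
  rw [i1_inr]
  have h : ∀ m, w m * ((cf (fb m) (p1 n).val : ℤ) : ZMod 3) = if m = n then w n else 0 := by
    intro m
    rw [p1_cf]
    by_cases h : m = n
    · rw [if_pos h, if_pos h, h]; simp
    · rw [if_neg h, if_neg h]; simp
  rw [Finset.sum_congr rfl fun m _ => h m, Finset.sum_ite_eq' Finset.univ n fun _ => w n, if_pos (Finset.mem_univ _)]

theorem i4_inj {w w' : Fin 5 → ZMod 3} (h : i4 w = i4 w') : w = w' := by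
  funext n
  rw [← i4_p4 w, h, i4_p4]

theorem i1_inj {w w' : Fin 5 → ZMod 3} (h : i1 w = i1 w') : w = w' := by
  funext n
  rw [← i1_p1 w, h, i1_p1]

/-- **`Ph` is injective.** -/
theorem Ph_inj : Function.Injective Ph := by
  rw [injective_iff_map_eq_one]
  intro A hA
  apply Subtype.ext
  have h : ∀ w : Fin 5 → ZMod 3, A.1 *ᵥ w = w := fun w => by
    apply i4_inj
    rw [← act4, hA]
    exact ac_one _
  show A.1 = 1
  exact Matrix.toLin'.injective (LinearMap.ext fun w => by rw [Matrix.toLin'_apply, h, Matrix.toLin'_one, LinearMap.id_apply])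

theorem order_Ph_As : orderOf (Ph As) = 121 := by rw [orderOf_injective Ph Ph_inj, order_s]

/-! ### the stabiliser of a subspace -/

/-- the stabiliser -/
def stabW (W : Submodule (ZMod 3) L3) : Subgroup E where
  carrier := {g | ∀ v ∈ W, ac g v ∈ W}
  one_mem' := fun v hv => by rw [ac_one]; exact hv
  mul_mem' := fun {a b} ha hb v hv => by rw [ac_mul]; exact ha _ (hb v hv)
  inv_mem' := by
    intro g hg v hv
    have hfin : Finite E := inferInstance
    obtain ⟨n, hn, h1⟩ : ∃ n, 0 < n ∧ g ^ n = 1 := (isOfFinOrder_of_finite g).exists_pow_eq_one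
    have h2 : g⁻¹ = g ^ (n - 1) := by
      rw [inv_eq_iff_mul_eq_one, ← pow_succ', Nat.sub_add_cancel hn, h1]
    rw [h2]
    have h3 : ∀ m : ℕ, ∀ v ∈ W, ac (g ^ m) v ∈ W := by
      intro m
      induction m with
      | zero => intro v hv; rw [pow_zero, ac_one]; exact hv
      | succ m ih => intro v hv; rw [pow_succ, ac_mul]; exact ih _ (hg v hv)
    exact h3 _ v hv

theorem mem_stabW {W : Submodule (ZMod 3) L3} {g : E} : g ∈ stabW W ↔ ∀ v ∈ W, ac g v ∈ W := Iff.rfl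

/-- **A coatom stabilising a `Ph`-stable proper subspace has order divisible by 121.** -/
theorem dvd_of_stab {H : Subgroup E} (hH : IsCoatom H) {W : Submodule (ZMod 3) L3} (hW : ∀ A : SL5, Ph A ∈ stabW W)
    (hne : stabW W ≠ ⊤) (hHW : H ≤ stabW W) : 121 ∣ Nat.card H := by
  have h1 : stabW W = H := by
    rcases hH.le_iff.1 hHW with h | h
    · exact absurd h hne
    · exact h
  have h2 : Ph As ∈ H := h1 ▸ hW As
  have h3 := Subgroup.orderOf_dvd_natCard H h2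
  rwa [order_Ph_As] at h3

/-! ### the subspaces are not stable under `E₈(3)` -/

theorem okl17 : okl 17 (vb 0) = true ∧ okl 17 (fb 0) = true := by decide +kernel

theorem cf7 : (∀ m, cf (vb m) 7 = 0 ∧ cf (fb m) 7 = 0 ∧ cf (vb m) 80 = 0 ∧ cf (fb m) 80 = 0) ∧
    ¬ (3 : ℤ) ∣ cf (xa 17 1 (vb 0)) 7 ∧ ¬ (3 : ℤ) ∣ cf (xa 17 1 (fb 0)) 80 := by decide +kernel

theorem i4_single (m : Fin 5) : i4 (Pi.single m 1) = vec (vb m) := by
  unfold i4
  rw [Finset.sum_eq_single m (fun n _ hn => by rw [Pi.single_eq_of_ne hn, zero_smul]) (fun h => absurd (Finset.mem_univ _) h),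
    Pi.single_eq_same, one_smul]

theorem i1_single (m : Fin 5) : i1 (Pi.single m 1) = vec (fb m) := by
  unfold i1
  rw [Finset.sum_eq_single m (fun n _ hn => by rw [Pi.single_eq_of_ne hn, zero_smul]) (fun h => absurd (Finset.mem_univ _) h),
    Pi.single_eq_same, one_smul]

/-- the coordinates vanishing on `U_I ⊔ U_II` -/
theorem U41_zero {v : L3} (hv : v ∈ U4 ⊔ U1) : v (Sum.inr ⟨7, by decide⟩) = 0 ∧ v (Sum.inr ⟨80, by decide⟩) = 0 := by
  obtain ⟨a, ⟨w, rfl⟩, b, ⟨w', rfl⟩, rfl⟩ := Submodule.mem_sup.1 hv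
  constructor
  · rw [Pi.add_apply, i4_inr, i1_inr, Finset.sum_eq_zero, Finset.sum_eq_zero, add_zero]
    · intro m _
      rw [(cf7.1 m).2.1, Int.cast_zero, mul_zero]
    · intro m _
      rw [(cf7.1 m).1, Int.cast_zero, mul_zero]
  · rw [Pi.add_apply, i4_inr, i1_inr, Finset.sum_eq_zero, Finset.sum_eq_zero, add_zero]
    · intro m _
      rw [(cf7.1 m).2.2.2, Int.cast_zero, mul_zero]
    · intro m _
      rw [(cf7.1 m).2.2.1, Int.cast_zero, mul_zero]

theorem ne_top_of {W : Submodule (ZMod 3) L3} (hW : W ≤ U4 ⊔ U1) (h : vec (vb 0) ∈ W ∨ vec (fb 0) ∈ W) :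
    stabW W ≠ ⊤ := by
  intro htop
  have hg : X 17 ((1 : ℤ) : ZMod 3) ∈ stabW W := htop ▸ Subgroup.mem_top _
  rcases h with h | h
  · have h1 := (U41_zero (hW (hg _ h))).1
    have h2 : ac (X 17 ((1 : ℤ) : ZMod 3)) (vec (vb 0)) = vec (xa 17 1 (vb 0)) := X_vec okl17.1 1
    rw [h2, vec_inr] at h1
    exact cf7.2.1 ((ZMod.intCast_zmod_eq_zero_iff_dvd _ 3).1 h1)
  · have h1 := (U41_zero (hW (hg _ h))).2
    have h2 : ac (X 17 ((1 : ℤ) : ZMod 3)) (vec (fb 0)) = vec (xa 17 1 (fb 0)) := X_vec okl17.2 1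
    rw [h2, vec_inr] at h1
    exact cf7.2.2 ((ZMod.intCast_zmod_eq_zero_iff_dvd _ 3).1 h1)

theorem ne_top4 : stabW U4 ≠ ⊤ := ne_top_of le_sup_left (Or.inl ⟨_, i4_single 0⟩)

theorem ne_top1 : stabW U1 ≠ ⊤ := ne_top_of le_sup_right (Or.inr ⟨_, i1_single 0⟩)

theorem ne_top41 : stabW (U4 ⊔ U1) ≠ ⊤ := ne_top_of le_rfl (Or.inl (le_sup_left (a := U4) ⟨_, i4_single 0⟩))

theorem Ph_stab4 (A : SL5) : Ph A ∈ stabW U4 := fun _ hv => Ph_U4 A hv

theorem Ph_stab1 (A : SL5) : Ph A ∈ stabW U1 := fun _ hv => Ph_U1 A hv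

theorem Ph_stab41 (A : SL5) : Ph A ∈ stabW (U4 ⊔ U1) := by
  intro v hv
  obtain ⟨a, ha, b, hb, rfl⟩ := Submodule.mem_sup.1 hv
  rw [ac_add]
  exact Submodule.add_mem_sup (Ph_U4 A ha) (Ph_U1 A hb)

/-! ### orbits of the special vectors -/

/-- the line of `A_I` -/
def qI : L3 := i4 ![1, 0, 0, 0, 0]

/-- the line of `A_II` -/
def qII : L3 := i1 ![1, 0, 0, 0, 2]

end Cfsg.Agent.H64.E83
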